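import Cfsg.Agent.H556.OmMono
import Mathlib.Tactic

/-!
# S3849, orthogonal row: rotations of order four in two of three orthogonal planes (helper571)

`Rot f e T U` : `U` rotates the planes `⟨e (k,0), e (k,1)⟩` with `T k` and is the identity on the other vectors of the
frame and on the orthogonal complement. An isometry of odd order which commutes with the squares of `Rot` for
`T = {0, 1}` and `T = {1, 2}` commutes with all rotations.
-/

set_option autoImplicit false
set_option linter.unusedSectionVars false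

namespace Cfsg.Agent.H571.RM.Om

open Module Cfsg.Agent.H556.Om

variable {F : Type*} [Field F] {V : Type*} [AddCommGroup V] [Module F V] {f : V →ₗ[F] V →ₗ[F] F}
  {e : Fin 3 × Fin 2 → V}

/-- rotations in the planes with `T k` -/
structure Rot (f : V →ₗ[F] V →ₗ[F] F) (e : Fin 3 × Fin 2 → V) (T : Fin 3 → Bool) (U : End F V) : Prop where
  h0 : ∀ k, T k = true → U (e (k, 0)) = e (k, 1)
  h1 : ∀ k, T k = true → U (e (k, 1)) = -e (k, 0)
  h2 : ∀ k, T k = false → ∀ i, U (e (k, i)) = e (k, i)
  h3 : ∀ w, (∀ j, f (e j) w = 0) → U w = w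

namespace Rot

variable {T T' : Fin 3 → Bool} {U W : End F V}

/-- the sign of the square -/
theorem sq (h : Rot f e T U) (k : Fin 3) (i : Fin 2) :
    (U ^ 2) (e (k, i)) = (if T k then (-1 : F) else 1) • e (k, i) := by
  rw [pow_two, End.mul_apply]
  cases hk : T k
  · rw [h.h2 k hk, h.h2 k hk]
    simp
  · fin_cases i
    · show U (U (e (k, 0))) = (if true = true then (-1 : F) else 1) • e (k, 0)
      rw [h.h0 k hk, h.h1 k hk]
      simp
    · show U (U (e (k, 1))) = (if true = true then (-1 : F) else 1) • e (k, 1)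
      rw [h.h1 k hk, map_neg, h.h0 k hk]
      simp

theorem sq_orth (h : Rot f e T U) {w : V} (hw : ∀ j, f (e j) w = 0) : (U ^ 2) w = w := by
  rw [pow_two, End.mul_apply, h.h3 w hw, h.h3 w hw]

theorem rel (h : Rot f e T U) (hF : Frame f e) (h2 : (2 : F) ≠ 0) : (U - 1) * (U ^ 2 + 1) = 0 := by
  refine ext_frame hF h2 ?_ ?_
  · rintro ⟨k, i⟩
    rw [End.mul_apply, LinearMap.add_apply, h.sq, End.one_apply, LinearMap.zero_apply]
    cases hk : T k
    · simp [h.h2 k hk]
    · simp
  · intro w hw
    rw [End.mul_apply, LinearMap.add_apply, h.sq_orth hw, End.one_apply, LinearMap.zero_apply, LinearMap.sub_apply,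
      map_add, h.h3 w hw, End.one_apply, sub_self]

theorem comm (h : Rot f e T U) (h' : Rot f e T' W) (hF : Frame f e) (h2 : (2 : F) ≠ 0) : U * W = W * U := by
  refine ext_frame hF h2 ?_ ?_
  · rintro ⟨k, i⟩
    rw [End.mul_apply, End.mul_apply]
    cases hk : T k
    · cases hk' : T' k
      · rw [h.h2 k hk, h'.h2 k hk', h.h2 k hk]
      · fin_cases i
        · show U (W (e (k, 0))) = W (U (e (k, 0)))
          rw [h.h2 k hk, h'.h0 k hk', h.h2 k hk]
        · show U (W (e (k, 1))) = W (U (e (k, 1)))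
          rw [h.h2 k hk, h'.h1 k hk', map_neg, h.h2 k hk]
    · cases hk' : T' k
      · fin_cases i
        · show U (W (e (k, 0))) = W (U (e (k, 0)))
          rw [h'.h2 k hk', h.h0 k hk, h'.h2 k hk']
        · show U (W (e (k, 1))) = W (U (e (k, 1)))
          rw [h'.h2 k hk', h.h1 k hk, map_neg, h'.h2 k hk']
      · fin_cases i
        · show U (W (e (k, 0))) = W (U (e (k, 0)))
          rw [h'.h0 k hk', h.h0 k hk, h.h1 k hk, h'.h1 k hk']
        · show U (W (e (k, 1))) = W (U (e (k, 1)))
          rw [h'.h1 k hk', h.h1 k hk, map_neg, map_neg, h.h0 k hk, h'.h0 k hk']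
  · intro w hw
    rw [End.mul_apply, End.mul_apply, h'.h3 w hw, h.h3 w hw, h'.h3 w hw]

end Rot

/-- eigenvectors of an isometry are orthogonal to those of a different sign -/
theorem orth_of_sign (h2 : (2 : F) ≠ 0) {D : End F V} (hD : ∀ u v, f (D u) (D v) = f u v) {x z : V} {s t : F}
    (hx : D x = s • x) (hz : D z = t • z) (hst : s * t = -1) : f x z = 0 := by
  have h := hD x z
  rw [hx, hz, map_smul, map_smul, LinearMap.smul_apply, smul_eq_mul, smul_eq_mul, ← mul_assoc, mul_comm t s, hst] at h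
  have h3 : (2 : F) * f x z = 0 := by linear_combination -h
  exact (mul_eq_zero.mp h3).resolve_left h2

/-- a vector negated by `D` lies in the span of the frame -/
theorem span_of_neg (hF : Frame f e) (h2 : (2 : F) ≠ 0) {D : End F V} {t : Fin 3 × Fin 2 → F}
    (hDe : ∀ j, D (e j) = t j • e j) (hDw : ∀ w, (∀ j, f (e j) w = 0) → D w = w) {z : V} (hz : D z = -z) :
    z = ∑ j, ((2 : F)⁻¹ * f (e j) z) • e j := by
  obtain ⟨c, w, hw, hzw⟩ := exists_decomp hF h2 z
  have hc : ∀ j, f (e j) z = 2 * c j := by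
    intro j
    rw [hzw, map_add, map_sum, hw j, add_zero, Finset.sum_eq_single j]
    · rw [map_smul, hF.self, smul_eq_mul, mul_comm]
    · intro i _ hi
      rw [map_smul, hF.orth j i hi.symm, smul_zero]
    · intro h
      exact absurd (Finset.mem_univ j) h
  have hc' : ∀ j, (2 : F)⁻¹ * f (e j) z = c j := by
    intro j
    rw [hc, ← mul_assoc, inv_mul_cancel₀ h2, one_mul]
  have h1 : ∑ j, (t j * c j + c j) • e j + (2 : F) • w = 0 := by
    have h3 : D z = ∑ j, (t j * c j) • e j + w := by
      nth_rewrite 1 [hzw]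
      rw [map_add, map_sum, hDw w hw]
      congr 1
      refine Finset.sum_congr rfl fun j _ => ?_
      rw [map_smul, hDe, smul_smul, mul_comm]
    rw [h3] at hz
    have h4 : ∑ j, (t j * c j + c j) • e j = ∑ j, (t j * c j) • e j + ∑ j, c j • e j := by
      rw [← Finset.sum_add_distrib]
      exact Finset.sum_congr rfl fun j _ => add_smul _ _ _
    rw [h4, two_smul]
    have h5 : z + (∑ j, (t j * c j) • e j + w) = 0 := by rw [hz]; abel
    rw [← h5]
    nth_rewrite 1 [hzw]
    abel
  have h6 : ∀ j, t j * c j + c j = 0 := by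
    intro j
    have h7 := congrArg (f (e j)) h1
    rw [map_add, map_sum, map_zero, map_smul, hw j, smul_zero, add_zero, Finset.sum_eq_single j] at h7
    · rw [map_smul, hF.self, smul_eq_mul] at h7
      exact (mul_eq_zero.mp h7).resolve_right h2
    · intro i _ hi
      rw [map_smul, hF.orth j i hi.symm, smul_zero]
    · intro h
      exact absurd (Finset.mem_univ j) h
  rw [Finset.sum_eq_zero fun j _ => by rw [h6 j, zero_smul], zero_add] at h1
  have hw0 : w = 0 := (smul_eq_zero.mp h1).resolve_left h2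
  calc z = ∑ j, c j • e j + w := hzw
    _ = _ := by
      rw [hw0, add_zero]
      exact Finset.sum_congr rfl fun j _ => by rw [hc' j]

/-- isometries of odd order of a plane are rotations -/
theorem rot_of_odd (h2 : (2 : F) ≠ 0) {x y : V} (hx : f x x = 2) (hy : f y y = 2) (hxy : f x y = 0) (hyx : f y x = 0)
    {a : End F V} (ha : ∀ u v, f (a u) (a v) = f u v) {m : ℕ} (hm : Odd m) (ham : a ^ m = 1) {α γ δ ε : F}
    (hax : a x = α • x + γ • y) (hay : a y = δ • x + ε • y) : δ = -γ ∧ ε = α := by
  have e1 : α * α + γ * γ = 1 := by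
    have h := ha x x
    rw [hax] at h
    simp only [map_add, map_smul, LinearMap.add_apply, LinearMap.smul_apply, smul_eq_mul, hx, hy, hxy, hyx] at h
    have h3 : (2 : F) * (α * α + γ * γ - 1) = 0 := by linear_combination h
    linear_combination (mul_eq_zero.mp h3).resolve_left h2
  have e2 : δ * δ + ε * ε = 1 := by
    have h := ha y y
    rw [hay] at h
    simp only [map_add, map_smul, LinearMap.add_apply, LinearMap.smul_apply, smul_eq_mul, hx, hy, hxy, hyx] at h
    have h3 : (2 : F) * (δ * δ + ε * ε - 1) = 0 := by linear_combination h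
    linear_combination (mul_eq_zero.mp h3).resolve_left h2
  have e3 : α * δ + γ * ε = 0 := by
    have h := ha x y
    rw [hax, hay] at h
    simp only [map_add, map_smul, LinearMap.add_apply, LinearMap.smul_apply, smul_eq_mul, hx, hy, hxy, hyx] at h
    have h3 : (2 : F) * (α * δ + γ * ε) = 0 := by linear_combination h
    exact (mul_eq_zero.mp h3).resolve_left h2
  set l := α * ε - γ * δ with hl
  have e4 : ε = l * α := by
    rw [hl]
    linear_combination (-ε) * e1 + γ * e3
  have e5 : δ = -(l * γ) := by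
    rw [hl]
    linear_combination (-δ) * e1 + α * e3
  have e6 : (l - 1) * (l + 1) = 0 := by
    have : l * l = 1 := by
      have h3 : δ * δ + ε * ε = l * l * (α * α + γ * γ) := by rw [e4, e5]; ring
      rw [e1, mul_one] at h3
      rw [← h3, e2]
    linear_combination this
  rcases mul_eq_zero.mp e6 with h | h
  · have h1 : l = 1 := sub_eq_zero.mp h
    rw [h1] at e4 e5
    exact ⟨by rw [e5]; ring, by rw [e4]; ring⟩
  · exfalso
    have h1 : l = -1 := by linear_combination h
    rw [h1] at e4 e5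
    have h3 : a (a x) = x := by
      rw [hax, map_add, map_smul, map_smul, hax, hay, e4, e5]
      have : α • (α • x + γ • y) + γ • (-(-1 * γ) • x + (-1 * α) • y) = (α * α + γ * γ) • x := by module
      rw [this, e1, one_smul]
    have h4 : a (a y) = y := by
      rw [hay, map_add, map_smul, map_smul, hax, hay, e4, e5]
      have : -(-1 * γ) • (α • x + γ • y) + (-1 * α) • (-(-1 * γ) • x + (-1 * α) • y) = (α * α + γ * γ) • y := by module
      rw [this, e1, one_smul]
    obtain ⟨k, rfl⟩ := hm
    have h5 : ∀ (k : ℕ) (v : V), a (a v) = v → (a ^ (2 * k)) v = v := by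
      intro k v hv
      induction k with
      | zero => simp
      | succ k ih =>
        have h6 : (a ^ (2 * (k + 1))) v = (a ^ (2 * k)) (a (a v)) := by
          rw [show 2 * (k + 1) = 2 * k + 1 + 1 by ring, pow_succ, pow_succ, End.mul_apply, End.mul_apply]
        rw [h6, hv, ih]
    have h7 : ∀ v, a (a v) = v → a v = v := by
      intro v hv
      have h8 : (a ^ (2 * k + 1)) v = a v := by
        rw [pow_succ', End.mul_apply, h5 k v hv]
      rw [ham, End.one_apply] at h8
      exact h8.symm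
    have hα : α = 1 := by
      have h8 := congrArg (f x) (h7 x h3)
      rw [hax, map_add, map_smul, map_smul, hxy, hx, smul_zero, add_zero, smul_eq_mul] at h8
      have h9 : (2 : F) * (α - 1) = 0 := by linear_combination h8
      exact sub_eq_zero.mp ((mul_eq_zero.mp h9).resolve_left h2)
    have hε : ε = 1 := by
      have h8 := congrArg (f y) (h7 y h4)
      rw [hay, map_add, map_smul, map_smul, hyx, hy, smul_zero, zero_add, smul_eq_mul] at h8
      have h9 : (2 : F) * (ε - 1) = 0 := by linear_combination h8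
      exact sub_eq_zero.mp ((mul_eq_zero.mp h9).resolve_left h2)
    rw [hα, hε] at e4
    exact h2 (by linear_combination e4)

/-- the two sets of planes -/
def T0 : Fin 3 → Bool := ![true, true, false]
def T1 : Fin 3 → Bool := ![false, true, true]

section main

variable {U W a a' : End F V}

/-- an isometry which commutes with the squares maps each plane into itself -/
theorem mem_plane (hF : Frame f e) (h2 : (2 : F) ≠ 0) (hU : Rot f e T0 U) (hW : Rot f e T1 W)
    (hUi : ∀ u v, f ((U ^ 2) u) ((U ^ 2) v) = f u v) (hWi : ∀ u v, f ((W ^ 2) u) ((W ^ 2) v) = f u v)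
    (haU : U ^ 2 * a = a * U ^ 2) (haW : W ^ 2 * a = a * W ^ 2) (k : Fin 3) (i : Fin 2) :
    ∃ α γ : F, a (e (k, i)) = α • e (k, 0) + γ • e (k, 1) := by
  have hsU : ∀ (k : Fin 3) (i : Fin 2), (U ^ 2) (a (e (k, i))) = (if T0 k then (-1 : F) else 1) • a (e (k, i)) := by
    intro k i
    rw [← End.mul_apply, haU, End.mul_apply, hU.sq, map_smul]
  have hsW : ∀ (k : Fin 3) (i : Fin 2), (W ^ 2) (a (e (k, i))) = (if T1 k then (-1 : F) else 1) • a (e (k, i)) := by
    intro k i
    rw [← End.mul_apply, haW, End.mul_apply, hW.sq, map_smul]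
  -- orthogonality of different planes
  have horth : ∀ (l : Fin 3) (j : Fin 2), l ≠ k → f (e (l, j)) (a (e (k, i))) = 0 := by
    intro l j hlk
    by_cases h : T0 l = T0 k
    · refine orth_of_sign h2 hWi (hW.sq l j) (hsW k i) ?_
      revert h hlk
      fin_cases l <;> fin_cases k <;> simp [T0, T1]
    · refine orth_of_sign h2 hUi (hU.sq l j) (hsU k i) ?_
      revert h hlk
      fin_cases l <;> fin_cases k <;> simp [T0]
  have hspan : a (e (k, i)) = ∑ j, ((2 : F)⁻¹ * f (e j) (a (e (k, i)))) • e j := by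
    by_cases h : T0 k = true
    · refine span_of_neg hF h2 (D := U ^ 2) (t := fun j => if T0 j.1 then (-1 : F) else 1)
        (fun j => hU.sq j.1 j.2) (fun w hw => hU.sq_orth hw) ?_
      rw [hsU, if_pos h, neg_smul, one_smul]
    · refine span_of_neg hF h2 (D := W ^ 2) (t := fun j => if T1 j.1 then (-1 : F) else 1)
        (fun j => hW.sq j.1 j.2) (fun w hw => hW.sq_orth hw) ?_
      rw [hsW, if_pos (by revert h; fin_cases k <;> simp [T0, T1]), neg_smul, one_smul]
  refine ⟨(2 : F)⁻¹ * f (e (k, 0)) (a (e (k, i))), (2 : F)⁻¹ * f (e (k, 1)) (a (e (k, i))), ?_⟩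
  · rw [Fintype.sum_prod_type, Finset.sum_eq_single k, Fin.sum_univ_two] at hspan
    · exact hspan
    · intro l _ hl
      refine Finset.sum_eq_zero fun j _ => ?_
      rw [horth l j hl, mul_zero, zero_smul]
    · intro h
      exact absurd (Finset.mem_univ k) h

theorem rot_plane (hF : Frame f e) (h2 : (2 : F) ≠ 0) (hU : Rot f e T0 U) (hW : Rot f e T1 W)
    (hUi : ∀ u v, f ((U ^ 2) u) ((U ^ 2) v) = f u v) (hWi : ∀ u v, f ((W ^ 2) u) ((W ^ 2) v) = f u v)
    (haU : U ^ 2 * a = a * U ^ 2) (haW : W ^ 2 * a = a * W ^ 2) (ha : ∀ u v, f (a u) (a v) = f u v)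
    {m : ℕ} (hm : Odd m) (ham : a ^ m = 1) (k : Fin 3) :
    ∃ α γ : F, a (e (k, 0)) = α • e (k, 0) + γ • e (k, 1) ∧ a (e (k, 1)) = -γ • e (k, 0) + α • e (k, 1) := by
  obtain ⟨α, γ, h0⟩ := mem_plane hF h2 hU hW hUi hWi haU haW k 0
  obtain ⟨δ, ε, h1⟩ := mem_plane hF h2 hU hW hUi hWi haU haW k 1
  obtain ⟨h3, h4⟩ := rot_of_odd h2 (hF.self (k, 0)) (hF.self (k, 1)) (hF.orth (k, 0) (k, 1) (by simp))
    (hF.orth (k, 1) (k, 0) (by simp)) ha hm ham h0 h1
  exact ⟨α, γ, h0, by rw [h1, h3, h4]⟩

/-- an isometry of odd order which commutes with the squares commutes with all rotations -/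
theorem comm_rot (hF : Frame f e) (h2 : (2 : F) ≠ 0) (hU : Rot f e T0 U) (hW : Rot f e T1 W)
    (hUi : ∀ u v, f ((U ^ 2) u) ((U ^ 2) v) = f u v) (hWi : ∀ u v, f ((W ^ 2) u) ((W ^ 2) v) = f u v)
    (haU : U ^ 2 * a = a * U ^ 2) (haW : W ^ 2 * a = a * W ^ 2) (ha : ∀ u v, f (a u) (a v) = f u v)
    {m : ℕ} (hm : Odd m) (ham : a ^ m = 1) (haa : a * a' = 1) (haa' : a' * a = 1) {T : Fin 3 → Bool} {R : End F V}
    (hR : Rot f e T R) : R * a = a * R := by
  have h := rot_plane hF h2 hU hW hUi hWi haU haW ha hm ham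
  have ha'a : ∀ v, a (a' v) = v := fun v => by rw [← End.mul_apply, haa, End.one_apply]
  have haU' : U ^ 2 * a' = a' * U ^ 2 := by
    calc U ^ 2 * a' = a' * (a * U ^ 2) * a' := by rw [← mul_assoc a' a, haa', one_mul]
      _ = a' * (U ^ 2 * a) * a' := by rw [haU]
      _ = a' * U ^ 2 := by rw [mul_assoc, mul_assoc, haa, mul_one]
  have haW' : W ^ 2 * a' = a' * W ^ 2 := by
    calc W ^ 2 * a' = a' * (a * W ^ 2) * a' := by rw [← mul_assoc a' a, haa', one_mul]
      _ = a' * (W ^ 2 * a) * a' := by rw [haW]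
      _ = a' * W ^ 2 := by rw [mul_assoc, mul_assoc, haa, mul_one]
  have horth : ∀ w, (∀ j, f (e j) w = 0) → ∀ j, f (e j) (a w) = 0 := by
    rintro w hw ⟨k, i⟩
    obtain ⟨α, γ, h0⟩ := mem_plane hF h2 hU hW hUi hWi haU' haW' k i
    rw [← ha'a (e (k, i)), ha, h0, map_add, map_smul, map_smul, LinearMap.add_apply, LinearMap.smul_apply,
      LinearMap.smul_apply, hw, hw, smul_zero, smul_zero, add_zero]
  refine ext_frame hF h2 ?_ ?_
  · rintro ⟨k, i⟩
    obtain ⟨α, γ, h0, h1⟩ := h k
    rw [End.mul_apply, End.mul_apply]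
    cases hk : T k
    · rw [hR.h2 k hk]
      fin_cases i
      · show R (a (e (k, 0))) = a (e (k, 0))
        rw [h0, map_add, map_smul, map_smul, hR.h2 k hk, hR.h2 k hk]
      · show R (a (e (k, 1))) = a (e (k, 1))
        rw [h1, map_add, map_smul, map_smul, hR.h2 k hk, hR.h2 k hk]
    · fin_cases i
      · show R (a (e (k, 0))) = a (R (e (k, 0)))
        rw [hR.h0 k hk, h0, h1, map_add, map_smul, map_smul, hR.h0 k hk, hR.h1 k hk]
        module
      · show R (a (e (k, 1))) = a (R (e (k, 1)))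
        rw [hR.h1 k hk, map_neg, h0, h1, map_add, map_smul, map_smul, hR.h0 k hk, hR.h1 k hk]
        module
  · intro w hw
    rw [End.mul_apply, End.mul_apply, hR.h3 w hw, hR.h3 _ (horth w hw)]

end main

end Cfsg.Agent.H571.RM.Om
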