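import Cfsg.Agent.H750.RM.Eig

/-!
# S3849, orthogonal row: squares of elements without the eigenvalue `-1` (helper571)

`sq_comm` : `z` normalises the commutative group `A` (`|A| ≠ 0` in the field), `ρ z ^ 4 = 1` and `-1` is not an eigenvalue
of `ρ z`; then `ρ (z ^ 2)` commutes with `ρ a` for `a ∈ A`.
-/

set_option autoImplicit false

namespace Cfsg.Agent.H571.RM.Om

open Module Cfsg.Agent.H750.RM

theorem pow_four_of {R : Type*} [Ring R] {T : R} (h : (T - 1) * (T ^ 2 + 1) = 0) : T ^ 4 = 1 := by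
  have h1 : T * T ^ 2 = T ^ 2 - T + 1 := by
    rw [sub_mul, mul_add, mul_add, one_mul, mul_one, mul_one] at h
    have h2 : T * T ^ 2 = (T * T ^ 2 + T - (T ^ 2 + 1)) + (T ^ 2 - T + 1) := by abel
    rw [h2, h, zero_add]
  have h3 : T ^ 4 = T * (T * T ^ 2) := by rw [← mul_assoc, ← pow_two, ← pow_add]
  rw [h3, h1, mul_add, mul_sub, h1, mul_one, pow_two]
  abel

section core

variable {k : Type*} [Field k] [IsAlgClosed k] {V : Type*} [AddCommGroup V] [Module k V] [FiniteDimensional k V]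
  {G : Type*} [Group G]

theorem sq_comm_core (ρ : G →* End k V) {A : Subgroup G} (hA : ∀ a ∈ A, ∀ b ∈ A, a * b = b * a)
    (hcard : (Nat.card A : k) ≠ 0) (h2 : (2 : k) ≠ 0) {z : G} (hn : ∀ a ∈ A, z * a * z⁻¹ ∈ A)
    (h4 : ρ z ^ 4 = 1) (hm1 : ∀ v : V, ρ z v = -v → v = 0) :
    ∀ a ∈ A, ρ (z ^ 2) * ρ a = ρ a * ρ (z ^ 2) := by
  intro a ha
  by_contra hne
  have hinv : ρ z⁻¹ * ρ z = 1 := by rw [← map_mul, inv_mul_cancel, map_one]
  have hinv' : ρ z * ρ z⁻¹ = 1 := by rw [← map_mul, mul_inv_cancel, map_one]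
  set Φ : End k V →ₗ[k] End k V := (LinearMap.mulRight k (ρ z⁻¹)).comp (LinearMap.mulLeft k (ρ z)) with hΦ
  have hΦa : ∀ u, Φ u = ρ z * u * ρ z⁻¹ := fun u => rfl
  have hz4 : ρ (z ^ 4) = 1 := by rw [map_pow, h4]
  have hz4' : ρ ((z ^ 4)⁻¹) = 1 := by
    have h1 : ρ ((z ^ 4)⁻¹) * ρ (z ^ 4) = 1 := by rw [← map_mul, inv_mul_cancel, map_one]
    rwa [hz4, mul_one] at h1
  have hΦ2 : ∀ u, Φ (Φ u) = ρ (z ^ 2) * u * ρ ((z ^ 2)⁻¹) := by
    intro u
    rw [hΦa, hΦa, pow_two, mul_inv_rev, map_mul, map_mul]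
    simp only [mul_assoc]
  have hΦ4 : ∀ u, Φ (Φ (Φ (Φ u))) = u := by
    intro u
    have h1 : Φ (Φ (Φ (Φ u))) = ρ (z ^ 4) * u * ρ ((z ^ 4)⁻¹) := by
      rw [hΦ2, hΦ2, show z ^ 4 = z ^ 2 * z ^ 2 by rw [← pow_add], mul_inv_rev, map_mul, map_mul]
      simp only [mul_assoc]
    rw [h1, hz4, hz4', one_mul, mul_one]
  set U := Submodule.span k (ρ '' (A : Set G)) with hU
  have hUΦ : ∀ u ∈ U, Φ u ∈ U := fun u hu => span_conj ρ hn u hu
  have htU : ρ a ∈ U := Submodule.subset_span ⟨a, ha, rfl⟩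
  set s0 := ρ a - Φ (Φ (ρ a)) with hs0
  have hs0U : s0 ∈ U := U.sub_mem htU (hUΦ _ (hUΦ _ htU))
  have hs0ne : s0 ≠ 0 := by
    intro h
    apply hne
    rw [hs0, sub_eq_zero, hΦ2] at h
    have h1 := congrArg (· * ρ (z ^ 2)) h
    beta_reduce at h1
    have h3 : ρ ((z ^ 2)⁻¹) * ρ (z ^ 2) = 1 := by rw [← map_mul, inv_mul_cancel, map_one]
    rw [mul_assoc, h3, mul_one] at h1
    exact h1.symm
  have hs02 : Φ (Φ s0) = -s0 := by
    rw [hs0, map_sub, map_sub, hΦ4, neg_sub]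
  obtain ⟨c, hc⟩ : ∃ c : k, c ^ 2 = -1 := IsAlgClosed.exists_pow_nat_eq (-1 : k) (by norm_num)
  have key : ∀ c : k, c ^ 2 = -1 → s0 + c • Φ s0 = 0 := by
    intro c hc
    by_contra hsne
    have hc0 : c ≠ 0 := by
      rintro rfl
      rw [zero_pow (by norm_num)] at hc
      exact one_ne_zero (neg_eq_zero.mp hc.symm)
    set s := s0 + c • Φ s0 with hs
    have hsU : s ∈ U := U.add_mem hs0U (U.smul_mem _ (hUΦ _ hs0U))
    have hsΦ : Φ s = (-c) • s := by
      rw [hs, map_add, map_smul, hs02, smul_add, smul_smul, show (-c) * c = 1 by linear_combination -hc, one_smul,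
        smul_neg, neg_smul, add_comm]
    have hsnil : ¬ IsNilpotent s := fun h =>
      hsne (Module.End.eq_zero_of_isNilpotent_isSemisimple h (span_ss ρ hA hcard s hsU))
    have hzs : ρ z * s = (-c) • (s * ρ z) := by
      rw [hΦa] at hsΦ
      have h2 := congrArg (· * ρ z) hsΦ
      beta_reduce at h2
      rwa [mul_assoc, hinv, mul_one, smul_mul_assoc] at h2
    obtain ⟨d, hd0, hd⟩ := coset_of_comm (z := ρ z) (s := s) (ω := -c)
      ((Units.map (ρ : G →* End k V) (toUnits z)).isUnit) hzs hsnil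
    have hd4 : d ^ 4 = 1 := by
      obtain ⟨v, hv⟩ := (hd 0).exists_hasEigenvector
      have h1 : ρ z v = d • v := by
        have := hv.apply_eq_smul
        rwa [pow_zero, mul_one] at this
      have h3 : (ρ z ^ 4) v = d ^ 4 • v := by
        have h4' : (ρ z ^ 4) v = ρ z (ρ z (ρ z (ρ z v))) := rfl
        simp only [h4', h1, map_smul]
        simp only [smul_smul]
        congr 1
        ring
      rw [h4, Module.End.one_apply] at h3
      have h5 : (d ^ 4 - 1) • v = 0 := by rw [sub_smul, ← h3, one_smul, sub_self]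
      rcases smul_eq_zero.mp h5 with h6 | h6
      · exact sub_eq_zero.mp h6
      · exact absurd h6 hv.2
    -- `d` is one of `1, -1, c, -c`
    have hfac : (d - 1) * (d + 1) * (d - c) * (d + c) = 0 := by
      have : (d - 1) * (d + 1) * (d - c) * (d + c) = (d ^ 2 - 1) * (d ^ 2 - c ^ 2) := by ring
      rw [this, hc]
      linear_combination hd4
    have hex : ∃ i : ℕ, d * (-c) ^ i = -1 := by
      rcases mul_eq_zero.mp hfac with h | h
      · rcases mul_eq_zero.mp h with h | h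
        · rcases mul_eq_zero.mp h with h | h
          · exact ⟨2, by linear_combination c ^ 2 * h + hc⟩
          · exact ⟨0, by linear_combination h⟩
        · -- d = c : c * (-c)^3 = -c^4 = -1
          exact ⟨3, by linear_combination (-c ^ 3) * h + (1 - c ^ 2) * hc⟩
      · -- d = -c : (-c) * (-c) = c ^ 2 = -1
        exact ⟨1, by linear_combination (-c) * h + hc⟩
    obtain ⟨i, hi⟩ := hex
    have h6 := hd i
    rw [hi] at h6
    obtain ⟨v, hv⟩ := h6.exists_hasEigenvector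
    exact hv.2 (hm1 v (by rw [hv.apply_eq_smul, neg_smul, one_smul]))
  have k1 := key c hc
  have k2 := key (-c) (by rw [neg_sq, hc])
  have k3 : (2 : k) • s0 = 0 := by
    have : (2 : k) • s0 = (s0 + c • Φ s0) + (s0 + (-c) • Φ s0) := by
      rw [neg_smul, two_smul]; abel
    rw [this, k1, k2, add_zero]
  exact hs0ne ((smul_eq_zero.mp k3).resolve_left h2)

end core

section field

variable {K : Type*} [Field K] {G : Type*} [Group G]

/-- the statement for matrices over an arbitrary field -/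
theorem sq_comm_matrix {ι : Type*} [Fintype ι] [DecidableEq ι] (ρ : G →* Matrix ι ι K) {A : Subgroup G}
    (hA : ∀ a ∈ A, ∀ b ∈ A, a * b = b * a) (hcard : (Nat.card A : K) ≠ 0) (h2 : (2 : K) ≠ 0) {z : G}
    (hn : ∀ a ∈ A, z * a * z⁻¹ ∈ A) (hz : (ρ z - 1) * (ρ z ^ 2 + 1) = 0) :
    ∀ a ∈ A, ρ (z ^ 2) * ρ a = ρ a * ρ (z ^ 2) := by
  let L := AlgebraicClosure K
  intro a ha
  have hcast : ∀ n : ℕ, (n : K) ≠ 0 → (n : L) ≠ 0 := by
    intro n hn0 h
    apply hn0
    have h1 : algebraMap K L (n : K) = 0 := by rw [map_natCast]; exact h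
    exact (map_eq_zero _).mp h1
  have h2L : (2 : L) ≠ 0 := by exact_mod_cast hcast 2 (by exact_mod_cast h2)
  -- the relation over `L`
  have hrel : (bc K L (ρ z) - 1) * (bc K L (ρ z) ^ 2 + 1) = 0 := by
    let φ : Matrix ι ι K →+* End L (ι → L) :=
      ((Matrix.toLinAlgEquiv' : Matrix ι ι L ≃ₐ[L] End L (ι → L)) : Matrix ι ι L →+* End L (ι → L)).comp
        ((algebraMap K L).mapMatrix : Matrix ι ι K →+* Matrix ι ι L)
    have h3 := congrArg φ hz
    rw [map_mul, map_sub, map_add, map_pow, map_one, map_zero] at h3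
    exact h3
  have h4 : bc K L (ρ z) ^ 4 = 1 := pow_four_of hrel
  refine bc_inj (L := L) ?_
  rw [map_mul, map_mul]
  refine sq_comm_core ((bc K L).comp ρ) hA (hcast _ hcard) h2L hn h4 ?_ a ha
  intro v hv
  have hv' : bc K L (ρ z) v = -v := hv
  have h6 : ((bc K L (ρ z) - 1) * (bc K L (ρ z) ^ 2 + 1) : End L (ι → L)) v = 0 := by rw [hrel]; rfl
  rw [Module.End.mul_apply, LinearMap.add_apply, pow_two, Module.End.mul_apply, hv', map_neg, hv', neg_neg,
    Module.End.one_apply, LinearMap.sub_apply, map_add, hv', Module.End.one_apply] at h6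
  have h7 : (-4 : L) • v = 0 := by
    rw [← h6]
    module
  have h8 : (-4 : L) ≠ 0 := by
    have : (-4 : L) = -(2 * 2) := by norm_num
    rw [this]
    exact neg_ne_zero.mpr (mul_ne_zero h2L h2L)
  exact (smul_eq_zero.mp h7).resolve_left h8

/-- the statement for endomorphisms of a vector space -/
theorem sq_comm {V : Type*} [AddCommGroup V] [Module K V] [FiniteDimensional K V] (ρ : G →* End K V)
    {A : Subgroup G} (hA : ∀ a ∈ A, ∀ b ∈ A, a * b = b * a) (hcard : (Nat.card A : K) ≠ 0) (h2 : (2 : K) ≠ 0) {z : G}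
    (hn : ∀ a ∈ A, z * a * z⁻¹ ∈ A) (hz : (ρ z - 1) * (ρ z ^ 2 + 1) = 0) :
    ∀ a ∈ A, ρ (z ^ 2) * ρ a = ρ a * ρ (z ^ 2) := by
  classical
  intro a ha
  let b := Module.Free.chooseBasis K V
  let e := LinearMap.toMatrixAlgEquiv b
  refine e.injective ?_
  rw [map_mul, map_mul]
  refine sq_comm_matrix ((MonoidHomClass.toMonoidHom e).comp ρ) hA hcard h2 hn ?_ a ha
  have h3 := congrArg e hz
  rw [map_mul, map_sub, map_add, map_pow, map_one, map_zero] at h3
  exact h3

end field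

end Cfsg.Agent.H571.RM.Om
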