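import Cfsg.Agent.H556.FHallOmega
import Cfsg.Agent.H550.RV.NoMinAb

/-!
# S3849, orthogonal row: `FTwo` for the orthogonal groups (helper571)

helper556's `fhall_omega` with the prime `2` recorded.
-/

set_option autoImplicit false
set_option linter.unusedSectionVars false

namespace Cfsg.Agent.H571.RM.Om

open Module QuadraticMap Cfsg.Agent.H167.OP Cfsg.Agent.H170.HL Cfsg.Agent.H170.HL.OmRow Cfsg.Agent.H170.Fl
open Subgroup Cfsg Cfsg.Agent.H988.CPi Cfsg.Agent.H553.OddHall Cfsg.Agent.H553.ExtRed Cfsg.Agent.H571.RV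
open Cfsg.Agent.H556.Om Cfsg.Agent.H959.RV

variable {π : Set ℕ}

/-- lifting the conditions through a surjective homomorphism with kernel of exponent two -/
theorem fTwo_of_surj {π : Set ℕ} {S X : Type*} [Group S] [Finite S] [Group X] [Finite X] (φ : X →* S)
    (hφ : Function.Surjective φ) (hk : ∀ k, φ k = 1 → k * k = 1) {H : Subgroup S} (hH : IsPiHall π H)
    (hcl : OddClosed (H.comap φ))
    (hab : ∀ x ∈ H.comap φ, ∀ y ∈ H.comap φ, Odd (orderOf x) → Odd (orderOf y) → x * y = y * x) :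
    FTwo π S := by
  have key : ∀ x ∈ H, Odd (orderOf x) → ∃ x' ∈ H.comap φ, φ x' = x ∧ Odd (orderOf x') := by
    intro x hxH hx
    obtain ⟨z, rfl⟩ := hφ x
    obtain ⟨k, hk'⟩ := hx
    have hz : φ (z ^ (orderOf (φ z) + 1)) = φ z := by
      rw [map_pow, pow_succ, pow_orderOf_eq_one, one_mul]
    refine ⟨z ^ (orderOf (φ z) + 1), ?_, hz, ?_⟩
    · show φ _ ∈ H
      rw [hz]; exact hxH
    · refine odd_orderOf_of_pow (n := orderOf (φ z)) ⟨k, hk'⟩ ?_
      have h1 : z ^ orderOf (φ z) * z ^ orderOf (φ z) = 1 := hk _ (by rw [map_pow, pow_orderOf_eq_one])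
      have h2 : orderOf (φ z) + 1 = 2 * (k + 1) := by omega
      rw [h2, ← pow_mul, mul_comm (2 * (k + 1)), ← mul_assoc, pow_mul, pow_mul, pow_two, h1, one_pow]
  refine Cfsg.Agent.H550.RV.fTwo_of_oddClosed hH ?_ ?_
  · intro x y hx hy
    rw [← Subgroup.orderOf_coe] at hx hy ⊢
    obtain ⟨x', hx'H, hx', hx'o⟩ := key x x.2 hx
    obtain ⟨y', hy'H, hy', hy'o⟩ := key y y.2 hy
    rw [Subgroup.coe_mul, ← hx', ← hy', ← map_mul]
    refine Odd.of_dvd_nat ?_ (orderOf_map_dvd φ _)
    have h1 := hcl ⟨x', hx'H⟩ ⟨y', hy'H⟩ (by rwa [Subgroup.orderOf_mk]) (by rwa [Subgroup.orderOf_mk])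
    rw [← Subgroup.orderOf_coe] at h1
    exact h1
  · intro x hx y hy hxo hyo
    obtain ⟨x', hx'H, rfl, hx'o⟩ := key x hx hxo
    obtain ⟨y', hy'H, rfl, hy'o⟩ := key y hy hyo
    rw [← map_mul, ← map_mul, hab x' hx'H y' hy'H hx'o hy'o]

theorem fTwo_omega {S : Type*} [Group S] [Finite S]
    (h2π : 2 ∈ π) (h3π : 3 ∉ π) (hE : IsEPiGroup π S) {F : Type} [Field F] [Finite F] {p : ℕ}
    [CharP F p] (hp : p.Prime) (hpπ : p ∉ π) {ι : Type} [Fintype ι]
    [DecidableEq ι] {Q : QuadraticForm F (ι → F)} (hQ : GoodQ Q) {Q' : (ι → F) → F}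
    (hQQ : ⇑Q = Q') (e : S ≃* Cfsg.POmega F Q') : FTwo π S := by
  subst hQQ
  have hfin : Finite (Cfsg.Omega F (⇑Q)) := inferInstance
  have h2 : (2 : F) ≠ 0 := by
    intro h
    have h1 : ((2 : ℕ) : F) = 0 := by exact_mod_cast h
    rw [CharP.cast_eq_zero_iff F p, Nat.prime_dvd_prime_iff_eq hp Nat.prime_two] at h1
    exact hpπ (h1 ▸ h2π)
  let φ : Cfsg.Omega F (⇑Q) →* S :=
    (e.symm : Cfsg.POmega F (⇑Q) →* S).comp
      (QuotientGroup.mk' (Subgroup.center (Cfsg.Omega F (⇑Q))))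
  have hφ : Function.Surjective φ :=
    e.symm.surjective.comp (QuotientGroup.mk'_surjective _)
  have hφ1 : ∀ k, φ k = 1 → k * k = 1 := by
    intro k h
    have hk : k ∈ Subgroup.center (Cfsg.Omega F (⇑Q)) := by
      rw [← QuotientGroup.eq_one_iff]
      exact e.symm.injective (h.trans (map_one e.symm).symm)
    have h1 := (Cfsg.Agent.LieClassical.OmegaCenter.mem_center_omega_iff Q hQ.nd hQ.card hQ.sing k).mp hk
    apply inc_injective
    rw [map_mul, map_one]
    have h1' : inc (⇑Q) k = 1 ∨ inc (⇑Q) k = -1 := h1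
    rcases h1' with h | h
    · rw [h, one_mul]
    · rw [h, neg_mul_neg, one_mul]
  obtain ⟨H, hH⟩ := hE
  have hH' : IsPiHall π H := hH
  -- the preimage
  have hK : IsPiHall π (H.comap φ) := by
    constructor
    · intro r hr hd
      have := Fact.mk hr
      obtain ⟨x, hx⟩ := exists_prime_orderOf_dvd_card' (G := H.comap φ) r hd
      by_cases h1 : φ (x : Cfsg.Omega F (⇑Q)) = 1
      · have h3 : x * x = 1 := Subtype.ext (hφ1 _ h1)
        have h4 : r ∣ 2 := by
          rw [← hx]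
          exact orderOf_dvd_of_pow_eq_one (by rw [pow_two]; exact h3)
        rw [(Nat.prime_dvd_prime_iff_eq hr Nat.prime_two).mp h4]
        exact h2π
      · apply hH'.1 r hr
        let z : H := ⟨φ x, x.2⟩
        have h3 : z ^ r = 1 := by
          apply Subtype.ext
          show (φ x) ^ r = 1
          rw [← map_pow]
          have : x ^ r = 1 := by rw [← hx, pow_orderOf_eq_one]
          have h4 : (x : Cfsg.Omega F (⇑Q)) ^ r = 1 := congrArg Subtype.val this
          rw [h4, map_one]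
        have h4 : orderOf z = r := orderOf_eq_prime h3 fun h => h1 (congrArg Subtype.val h)
        rw [← h4]
        exact orderOf_dvd_natCard z
    · intro r hr hrπ hd
      rw [index_comap_of_surjective H hφ] at hd
      exact hH'.2 r hr hrπ hd
  have hHH : HH Q (H.comap φ) :=
    { gq := hQ
      two := h2
      claim := claimAll F ι Q h2 hQ
      idx := hK.2 2 Nat.prime_two h2π
      three := fun hd => h3π (hK.1 3 Nat.prime_three hd)
      card := by
        intro h0
        rw [CharP.cast_eq_zero_iff F p] at h0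
        exact hpπ (hK.1 p hp h0) }
  have hcl : OddClosed (H.comap φ) := by
    refine Cfsg.Agent.H556.OmClosed.oddClosed_of_cen ?_
    intro r n hr hr2 hd g hg R hR hgR
    have hrπ : r ∈ π := hK.1 r hr hd
    have h5 : 5 ≤ r := by
      by_contra hcon
      push Not at hcon
      have := hr.two_le
      interval_cases r
      · exact hr2 rfl
      · exact h3π hrπ
      · exact absurd hr (by norm_num)
    have h6 := hHH.cen hK h2π h3π hr h5 hrπ (y := (g : Cfsg.Omega F (⇑Q))) g.2 (n := n)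
      (by exact_mod_cast congrArg Subtype.val hg) (D := R.map (H.comap φ).subtype) (map_subtype_le _) (hR.map _) (by
        rintro _ ⟨d, hd, rfl⟩
        exact ⟨g * d * g⁻¹, (mem_normalizer_iff.mp hgR d).mp hd, rfl⟩)
    rw [mem_centralizer_iff]
    intro d hd
    exact Subtype.ext (h6 d ⟨d, hd, rfl⟩).symm
  exact fTwo_of_surj φ hφ hφ1 hH' hcl fun x hx y hy hxo hyo =>
    hHH.comm_odd hK h2π h3π hcl hx hy hxo hyo

end Cfsg.Agent.H571.RM.Om
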