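import Cfsg.Agent.H571.RM.Pred

/-!
# S3849: the weak closure argument (helper571)
-/

set_option autoImplicit false

namespace Cfsg.Agent.H571.RM

open Subgroup Cfsg Cfsg.Agent.H988.CPi Cfsg.Agent.H571.DExt Cfsg.Agent.H571.RV Cfsg.Agent.Solvable.SZ
open scoped Pointwise

universe u

variable {π : Set ℕ} {r : ℕ} {G : Type u} [Group G] [Finite G] {H A : Subgroup G}

omit [Finite G] in
theorem mem_smul_iff' {g x : G} {K : Subgroup G} : x ∈ MulAut.conj g • K ↔ g⁻¹ * x * g ∈ K := by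
  constructor
  · rintro ⟨y, hy, hyx⟩
    have h1 : g * y * g⁻¹ = x := hyx
    rw [← h1]
    have h2 : g⁻¹ * (g * y * g⁻¹) * g = y := by group
    rw [h2]; exact hy
  · intro h
    refine ⟨g⁻¹ * x * g, h, ?_⟩
    show g * (g⁻¹ * x * g) * g⁻¹ = x
    group

omit [Finite G] in
theorem smul_le_iff' {g : G} {K L : Subgroup G} : MulAut.conj g • K ≤ L ↔ K ≤ MulAut.conj g⁻¹ • L := by
  constructor
  · intro h x hx
    rw [mem_smul_iff', inv_inv]
    exact h ⟨x, hx, rfl⟩
  · rintro h _ ⟨x, hx, rfl⟩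
    have h1 := mem_smul_iff'.mp (h hx)
    rw [inv_inv] at h1
    exact h1

/-- structure of the `π`-subgroups -/
theorem split (h : DFw π r ⊤ H A) {K : Subgroup G} (hK : PiN π (Nat.card K)) :
    ∃ X ≤ K, K ≤ normalizer (X : Set G) ∧ ¬ r ∣ Nat.card X ∧ ∀ p : ℕ, p.Prime → p ∣ X.relIndex K → p = r := by
  obtain ⟨g, -, hg⟩ := h.dom K le_top hK
  have h' := h.conj (mem_top g)
  set A' := MulAut.conj g • A with hA'
  refine ⟨K ⊓ A', inf_le_left, ?_, fun hd => h'.rA (hd.trans (card_dvd_of_le inf_le_right)), ?_⟩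
  · rw [le_normalizer_iff]
    rintro k hk x ⟨hx1, hx2⟩
    exact ⟨K.mul_mem (K.mul_mem hk hx1) (K.inv_mem hk), (le_normalizer_iff.mp h'.nor) k (hg hk) x hx2⟩
  · intro p hp hd
    rw [inf_comm, inf_relIndex_right] at hd
    have hn : (A'.subgroupOf (MulAut.conj g • H)).Normal := (normal_subgroupOf_iff_le_normalizer h'.ale).mpr h'.nor
    have h2 := relIndex_dvd_index_of_normal (A'.subgroupOf (MulAut.conj g • H)) (K.subgroupOf (MulAut.conj g • H))
    rw [relIndex_subgroupOf hg] at h2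
    exact h'.idx p hp (hd.trans h2)

/-- Wielandt in `M ≥ A` -/
theorem wiel (h : DFw π r ⊤ H A) {M : Subgroup G} (hAM : A ≤ M) {X : Subgroup G} (hXM : X ≤ M)
    (hX : PiN π (Nat.card X)) (hrX : ¬ r ∣ Nat.card X) : ∃ m ∈ M, X ≤ MulAut.conj m • A := by
  have hnil : Group.IsNilpotent (A.subgroupOf M) := by
    have hcomm : ∀ a b : A.subgroupOf M, a * b = b * a := fun a b =>
      Subtype.ext (Subtype.ext (h.ab _ a.2 _ b.2))
    let inst : CommGroup (A.subgroupOf M) := { (inferInstance : Group (A.subgroupOf M)) with mul_comm := hcomm }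
    exact CommGroup.isNilpotent
  have hcop : (Nat.card (A.subgroupOf M)).Coprime (A.subgroupOf M).index := by
    rw [card_subgroupOf _ _ hAM]
    refine Nat.coprime_of_dvd fun p hp h1 h2 => ?_
    have h3 : p = r := h.idx_le hAM le_top hp (h.pi p hp (h1.trans (card_dvd_of_le h.ale))) h2
    exact h.rA (h3 ▸ h1)
  obtain ⟨y, hy⟩ := Cfsg.Agent.S0581.result (A.subgroupOf M) (X.subgroupOf M) hnil hcop (by
    intro p hp hd
    rw [card_subgroupOf _ _ hXM] at hd
    rw [card_subgroupOf _ _ hAM]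
    have h1 : p ∣ Nat.card A * A.relIndex M := by
      have h2 : Nat.card (A.subgroupOf M) * (A.subgroupOf M).index = Nat.card M := card_mul_index _
      rw [card_subgroupOf _ _ hAM] at h2
      rw [show A.relIndex M = (A.subgroupOf M).index from rfl, h2]
      exact hd.trans (card_dvd_of_le hXM)
    rcases hp.dvd_mul.mp h1 with h2 | h2
    · exact h2
    · have h3 : p = r := h.idx_le hAM le_top hp (hX p hp hd) h2
      exact absurd (h3 ▸ hd) hrX)
  refine ⟨y, y.2, fun x hx => ?_⟩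
  obtain ⟨b, hb, hb'⟩ := hy (show (⟨x, hXM hx⟩ : M) ∈ X.subgroupOf M from hx)
  exact ⟨b, hb, congrArg Subtype.val hb'⟩

/-- inside a subgroup `N`: an `r`-subgroup containing a given `r`-subgroup and a conjugate of another one -/
theorem exists_both (hr : r.Prime) {N R B : Subgroup G} (hRN : R ≤ N) (hBN : B ≤ N) (hR : IsPGroup r R)
    (hB : IsPGroup r B) : ∃ Q ≤ N, IsPGroup r Q ∧ R ≤ Q ∧ ∃ n ∈ N, MulAut.conj n • B ≤ Q := by
  have := Fact.mk hr
  have h1 : IsPGroup r (R.subgroupOf N) := hR.comap_subtype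
  have h2 : IsPGroup r (B.subgroupOf N) := hB.comap_subtype
  obtain ⟨P, hP⟩ := h1.exists_le_sylow
  obtain ⟨P', hP'⟩ := h2.exists_le_sylow
  obtain ⟨n, hn⟩ := MulAction.exists_smul_eq N P' P
  refine ⟨(P : Subgroup N).map N.subtype, map_subtype_le _, P.isPGroup'.map _, ?_, n, n.2, ?_⟩
  · intro x hx
    exact ⟨⟨x, hRN hx⟩, hP hx, rfl⟩
  · rintro _ ⟨b, hb, rfl⟩
    refine ⟨n * ⟨b, hBN hb⟩ * n⁻¹, ?_, rfl⟩
    rw [← hn]
    exact ⟨⟨b, hBN hb⟩, hP' hb, rfl⟩

/-- a Sylow `r`-subgroup of `K` together with the normal subgroup `X` of `r`-power index generates `K` -/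
theorem sup_sylow (hr : r.Prime) {K X : Subgroup G} (hXK : X ≤ K) (hKX : K ≤ normalizer (X : Set G))
    (hidx : ∀ p : ℕ, p.Prime → p ∣ X.relIndex K → p = r) : ∃ R ≤ K, IsPGroup r R ∧ X ⊔ R = K := by
  have := Fact.mk hr
  obtain ⟨P⟩ : Nonempty (Sylow r K) := inferInstance
  refine ⟨(P : Subgroup K).map K.subtype, map_subtype_le _, P.isPGroup'.map _, ?_⟩
  have hle : X ⊔ (P : Subgroup K).map K.subtype ≤ K := sup_le hXK (map_subtype_le _)
  apply le_antisymm hle
  rw [← relIndex_eq_one]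
  by_contra hne
  obtain ⟨p, hp, hd⟩ := Nat.exists_prime_and_dvd hne
  have h1 : p = r := by
    refine hidx p hp (hd.trans ?_)
    rw [← relIndex_mul_relIndex X (X ⊔ (P : Subgroup K).map K.subtype) K le_sup_left hle]
    exact Dvd.intro_left _ rfl
  have h2 : p ∣ ((P : Subgroup K).map K.subtype).relIndex K := by
    refine hd.trans ?_
    rw [← relIndex_mul_relIndex ((P : Subgroup K).map K.subtype) (X ⊔ (P : Subgroup K).map K.subtype) K
      le_sup_right hle]
    exact Dvd.intro_left _ rfl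
  have h3 : ((P : Subgroup K).map K.subtype).relIndex K = (P : Subgroup K).index := by
    rw [relIndex, subgroupOf, comap_map_eq_self_of_injective K.subtype_injective]
  rw [h3, h1] at h2
  exact P.not_dvd_index h2

end Cfsg.Agent.H571.RM
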