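import Cfsg.Agent.H571.RM.Theta

/-!
# S3849: the theorems THETA and FD (helper571)

`A ≤ H` abelian normal of order prime to `r`, `H / A` an `r`-group, `H` a dominating Hall `π`-subgroup of `G`.

* `theta` : `B ≤ C_H(A)` an `r`-subgroup, `L` contains all `g` such that `B`, `B^g` lie in a common `r`-subgroup:
  `Dom (M ⊓ L)` implies `Dom M` for `M ≥ H`; `theta_L` : `Dom L`;
* `fd` : for `1 ≠ X ≤ A` the Hall subgroup `A` of `C_M(X)` has a number of conjugates prime to `r`: `Dom M`.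
-/

set_option autoImplicit false

namespace Cfsg.Agent.H571.RM

open Subgroup Cfsg Cfsg.Agent.H988.CPi Cfsg.Agent.H571.DExt Cfsg.Agent.H571.RV Cfsg.Agent.Solvable.SZ
open scoped Pointwise

universe u

variable {π : Set ℕ} {r : ℕ} {G : Type u} [Group G] {H A B L : Subgroup G}

/-- `L` contains every `g` such that `B` and `B^g` lie in a common `r`-subgroup -/
def Ctrl (r : ℕ) (B L : Subgroup G) : Prop :=
  ∀ g : G, ∀ Q : Subgroup G, IsPGroup r Q → B ≤ Q → MulAut.conj g • B ≤ Q → g ∈ L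

theorem Ctrl.mem (hL : Ctrl r B L) (hB : IsPGroup r B) {g : G} (hg : ∀ b ∈ B, g * b * g⁻¹ ∈ B) : g ∈ L := by
  refine hL g B hB le_rfl ?_
  rintro _ ⟨b, hb, rfl⟩
  exact hg b hb

/-- the core of the argument -/
theorem Ctrl.core (hL : Ctrl r B L) (hB : IsPGroup r B) (hBA : ∀ b ∈ B, ∀ a ∈ A, b * a = a * b) {X Q : Subgroup G}
    {n : G} (hXA : X ≤ A) (hn : n ∈ normalizer (X : Set G)) (hQ : IsPGroup r Q) (hBQ : MulAut.conj n • B ≤ Q) :
    X ⊔ Q ≤ MulAut.conj n • L := by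
  refine sup_le (fun x hx => ?_) fun y hy => ?_
  · rw [mem_smul_iff']
    have hx' : n⁻¹ * x * n ∈ X := by
      have h1 := (mem_normalizer_iff.mp ((normalizer (X : Set G)).inv_mem hn) x).mp hx
      rwa [inv_inv] at h1
    refine hL.mem hB fun b hb => ?_
    rw [← hBA b hb _ (hXA hx'), mul_inv_cancel_right]
    exact hb
  · rw [mem_smul_iff']
    refine hL _ (MulAut.conj n⁻¹ • Q) ?_ (smul_le_iff'.mp hBQ) ?_
    · exact (hQ.map _ : IsPGroup r (Q.map (MulAut.conj n⁻¹).toMonoidHom))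
    · rintro _ ⟨b, hb, rfl⟩
      rw [mem_smul_iff', inv_inv]
      have h1 : n * b * n⁻¹ ∈ Q := hBQ ⟨b, hb, rfl⟩
      have h2 : n * ((MulAut.conj (n⁻¹ * y * n)) b) * n⁻¹ = y * (n * b * n⁻¹) * y⁻¹ := by
        rw [MulAut.conj_apply]; group
      have h3 := Q.mul_mem (Q.mul_mem hy h1) (Q.inv_mem hy)
      rw [← h2] at h3
      exact h3

variable [Finite G]

/-- reduction of a `π`-subgroup `K` of `M` : after conjugation in `M`, `K = X ⊔ R`, `X ≤ A` normal, `R` an `r`-group -/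
theorem reduce (h : DFw π r ⊤ H A) (hr : r.Prime) {M : Subgroup G} (hAM : A ≤ M) {K : Subgroup G} (hKM : K ≤ M)
    (hK : PiN π (Nat.card K)) : ∃ m ∈ M, ∃ X R : Subgroup G, X ≤ A ∧ IsPGroup r R ∧ R ≤ M ∧
      R ≤ normalizer (X : Set G) ∧ MulAut.conj m • K = X ⊔ R := by
  obtain ⟨X, hXK, hKX, hrX, hidx⟩ := split h hK
  have hXπ : PiN π (Nat.card X) := hK.of_dvd (card_dvd_of_le hXK)
  obtain ⟨m, hm, hXA⟩ := wiel h hAM (hXK.trans hKM) hXπ hrX
  obtain ⟨R, hRK, hR, hsup⟩ := sup_sylow hr hXK hKX hidx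
  refine ⟨m⁻¹, M.inv_mem hm, MulAut.conj m⁻¹ • X, MulAut.conj m⁻¹ • R, ?_, ?_, ?_, ?_, ?_⟩
  · rw [smul_le_iff', inv_inv]; exact hXA
  · exact (hR.map _ : IsPGroup r (R.map (MulAut.conj m⁻¹).toMonoidHom))
  · rintro _ ⟨x, hx, rfl⟩
    exact M.mul_mem (M.mul_mem (M.inv_mem hm) (hKM (hRK hx))) (M.inv_mem (M.inv_mem hm))
  · rw [le_normalizer_iff]
    rintro _ ⟨x, hx, rfl⟩ _ ⟨y, hy, rfl⟩
    refine ⟨x * y * x⁻¹, (le_normalizer_iff.mp (hRK.trans hKX)) x hx y hy, ?_⟩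
    simp
  · rw [← smul_sup, hsup]

/-- from a conjugate back -/
theorem back {M K : Subgroup G} {m : G} (hm : m ∈ M) (h : ∃ x ∈ M, MulAut.conj m • K ≤ MulAut.conj x • H) :
    ∃ x ∈ M, K ≤ MulAut.conj x • H := by
  obtain ⟨x, hx, hle⟩ := h
  refine ⟨m⁻¹ * x, M.mul_mem (M.inv_mem hm) hx, ?_⟩
  rw [map_mul, mul_smul]
  exact smul_le_iff'.mp hle

/-- **THETA** -/
theorem theta (h : DFw π r ⊤ H A) (hr : r.Prime) (hB : IsPGroup r B) (hBH : B ≤ H)
    (hBA : ∀ b ∈ B, ∀ a ∈ A, b * a = a * b) (hL : Ctrl r B L) {M : Subgroup G} (hHM : H ≤ M)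
    (hdom : DomIn π (M ⊓ L) H) : DomIn π M H := by
  intro K hKM hK
  obtain ⟨m, hm, X, R, hXA, hR, hRM, hRX, hsup⟩ := reduce h hr (h.ale.trans hHM) hKM hK
  refine back hm ?_
  have hXM : X ≤ M := hXA.trans (h.ale.trans hHM)
  obtain ⟨Q, hQN, hQ, hRQ, n, hn, hBQ⟩ := exists_both hr (N := normalizer (X : Set G) ⊓ M) (R := R) (B := B)
    (le_inf hRX hRM) (le_inf (by
      rw [le_normalizer_iff]
      intro b hb x hx
      rw [hBA b hb x (hXA hx), mul_inv_cancel_right]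
      exact hx) (hBH.trans hHM)) hR hB
  have h1 : X ⊔ Q ≤ MulAut.conj n • L := hL.core hB hBA hXA hn.1 hQ hBQ
  have h2 : MulAut.conj n⁻¹ • (X ⊔ R) ≤ M ⊓ L := by
    refine le_inf ?_ ?_
    · rw [smul_le_iff', inv_inv]
      intro x hx
      rw [mem_smul_iff']
      exact M.mul_mem (M.mul_mem (M.inv_mem hn.2) ((sup_le hXM hRM) hx)) hn.2
    · rw [smul_le_iff', inv_inv]
      exact (sup_le_sup_left hRQ X).trans h1
  have h3 : PiN π (Nat.card (MulAut.conj n⁻¹ • (X ⊔ R) : Subgroup G)) := by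
    rw [card_conj_smul, ← hsup, card_conj_smul]; exact hK
  obtain ⟨x, hx, hle⟩ := hdom _ h2 h3
  refine ⟨n * x, M.mul_mem hn.2 hx.1, ?_⟩
  rw [hsup, map_mul, mul_smul]
  rw [smul_le_iff', inv_inv] at hle
  exact hle

theorem theta_le (hB : IsPGroup r B) (hL : Ctrl r B L) (hBn : H ≤ normalizer (B : Set G)) : H ≤ L := fun x hx =>
  hL.mem hB fun b hb => (le_normalizer_iff.mp hBn) x hx b hb

/-- **THETA**, the group `L` -/
theorem theta_L (h : DFw π r ⊤ H A) (hr : r.Prime) (hrπ : r ∈ π) (hB : IsPGroup r B) (hBH : B ≤ H)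
    (hBn : H ≤ normalizer (B : Set G))
    (hBA : ∀ b ∈ B, ∀ a ∈ A, b * a = a * b) (hL : Ctrl r B L) : DomIn π L H := by
  have hHL := theta_le hB hL hBn
  intro K hKM hK
  obtain ⟨m, hm, X, R, hXA, hR, hRM, hRX, hsup⟩ := reduce h hr (h.ale.trans hHL) hKM hK
  refine back hm ?_
  have hXM : X ≤ L := hXA.trans (h.ale.trans hHL)
  obtain ⟨Q, hQN, hQ, hRQ, n, hn, hBQ⟩ := exists_both hr (N := normalizer (X : Set G) ⊓ L) (R := R) (B := B)
    (le_inf hRX hRM) (le_inf (by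
      rw [le_normalizer_iff]
      intro b hb x hx
      rw [hBA b hb x (hXA hx), mul_inv_cancel_right]
      exact hx) (hBH.trans hHL)) hR hB
  have hXπ : PiN π (Nat.card X) := h.pi.of_dvd (card_dvd_of_le (hXA.trans h.ale))
  have hQπ : PiN π (Nat.card Q) := by
    intro p hp hd
    have := Fact.mk hr
    obtain ⟨k, hk⟩ := IsPGroup.iff_card.mp hQ
    rw [hk] at hd
    rw [(Nat.prime_dvd_prime_iff_eq hp hr).mp (hp.dvd_of_dvd_pow hd)]
    exact hrπ
  have hWπ : PiN π (Nat.card (Q ⊔ X : Subgroup G)) := piN_sup (hQN.trans inf_le_left) hQπ hXπ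
  obtain ⟨g, -, hg⟩ := h.dom _ le_top hWπ
  refine ⟨g, ?_, ?_⟩
  · -- `B^n` and `B^g` in a common `r`-subgroup
    have hBg : MulAut.conj g • H ≤ normalizer ((MulAut.conj g • B : Subgroup G) : Set G) := by
      rw [le_normalizer_iff]
      rintro _ ⟨x, hx, rfl⟩ _ ⟨b, hb, rfl⟩
      refine ⟨x * b * x⁻¹, (le_normalizer_iff.mp hBn) x hx b hb, ?_⟩
      simp
    have hBgr : IsPGroup r (MulAut.conj g • B : Subgroup G) :=
      (hB.map _ : IsPGroup r (B.map (MulAut.conj g).toMonoidHom))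
    have hBnr : IsPGroup r (MulAut.conj n • B : Subgroup G) :=
      (hB.map _ : IsPGroup r (B.map (MulAut.conj n).toMonoidHom))
    have hle : MulAut.conj n • B ≤ normalizer ((MulAut.conj g • B : Subgroup G) : Set G) :=
      (hBQ.trans (le_sup_left.trans hg)).trans hBg
    have hP : IsPGroup r (MulAut.conj n • B ⊔ MulAut.conj g • B : Subgroup G) :=
      IsPGroup.to_sup_of_normal_right' hBnr hBgr hle
    have h1 : n⁻¹ * g ∈ L := by
      refine hL _ (MulAut.conj n⁻¹ • (MulAut.conj n • B ⊔ MulAut.conj g • B)) ?_ ?_ ?_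
      · exact (hP.map _ : IsPGroup r ((MulAut.conj n • B ⊔ MulAut.conj g • B : Subgroup G).map
          (MulAut.conj n⁻¹).toMonoidHom))
      · rw [← smul_le_iff']
        exact le_sup_left
      · rw [map_mul, mul_smul]
        exact smul_mono_right _ le_sup_right
    have h2 := L.mul_mem hn.2 h1
    rwa [mul_inv_cancel_left] at h2
  · rw [hsup]
    exact (sup_le le_sup_right (hRQ.trans le_sup_left)).trans hg

end Cfsg.Agent.H571.RM
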